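import Cfsg.Agent.Lib.InvCentralizers.ChevInvolution.Levels
import Cfsg.Agent.Lib.Chevalley.TorusData

/-!
The two classes of involutions, from the data of a type.
-/

set_option autoImplicit false
set_option linter.unusedSectionVars false

namespace CfsgLib.InvCentralizers.ChevInvolution

open Cfsg.Lie CfsgLib.Chevalley

variable {D : ChevalleyDatum} {A : Aux} {F : Type*} [Field F]

theorem torusHom_injective [Fintype F] (h : Full D A)
    (hd : Nat.card (D.diagonalSubgroup F) = (Fintype.card F - 1) ^ D.rank) :
    Function.Injective (torusHom D F) := by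
  classical
  refine MonoidHom.rangeRestrict_injective_iff.1
    ((Nat.bijective_iff_surjective_and_card _).2 ⟨(torusHom D F).rangeRestrict_surjective, ?_⟩).1
  rw [← diagonalSubgroup_eq_range h, hd, Nat.card_eq_fintype_card, Fintype.card_fun,
    Fintype.card_fin, Fintype.card_units]

theorem not_isConj_of_card {G : Type*} [Group G] {s t : G}
    (h : Nat.card (Subgroup.centralizer ({s} : Set G)) ≠ Nat.card (Subgroup.centralizer ({t} : Set G))) :
    ¬ IsConj s t := by
  intro hc
  obtain ⟨g, rfl⟩ := isConj_iff.1 hc
  refine h (Nat.card_congr ((MulAut.conj g).toEquiv.subtypeEquiv fun x => ?_))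
  show x ∈ Subgroup.centralizer ({s} : Set G) ↔ g * x * g⁻¹ ∈ Subgroup.centralizer ({g * s * g⁻¹} : Set G)
  rw [Subgroup.mem_centralizer_singleton_iff, Subgroup.mem_centralizer_singleton_iff,
    show g * x * g⁻¹ * (g * s * g⁻¹) = g * (x * s) * g⁻¹ by group,
    show g * s * g⁻¹ * (g * x * g⁻¹) = g * (s * x) * g⁻¹ by group]
  exact ⟨fun e => by rw [e], fun e => mul_left_cancel (mul_right_cancel e)⟩

/-- The data of a type give the two classes and the orders of the centralizers. -/
theorem two_classes [Fintype F] (hodd : Odd (Fintype.card F)) (h : Full D A) (H : InvData D A)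
    (hd : Nat.card (D.diagonalSubgroup F) = (Fintype.card F - 1) ^ D.rank)
    {z w : ℕ} {lz lw : List (ℕ × ℕ)} (hB : coverB D A z w lz lw = true)
    (kz kw : Fin D.rank) (hkz : z.testBit kz = true) (hkw : w.testBit kw = true) {nz nw : ℕ}
    (hz : Nat.card (Subgroup.centralizer ({invElem h F z} : Set (D.group F))) = nz)
    (hw : Nat.card (Subgroup.centralizer ({invElem h F w} : Set (D.group F))) = nw) (hne : nz ≠ nw) :
    ∃ s t : D.group F, orderOf s = 2 ∧ orderOf t = 2 ∧ ¬ IsConj s t ∧
      (∀ u : D.group F, orderOf u = 2 → IsConj u s ∨ IsConj u t) ∧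
      Nat.card (Subgroup.centralizer ({s} : Set (D.group F))) = nz ∧
      Nat.card (Subgroup.centralizer ({t} : Set (D.group F))) = nw :=
  have hinj := torusHom_injective (F := F) h hd
  ⟨invElem h F z, invElem h F w, orderOf_invElem h hinj (neg_one_ne_one hodd) kz hkz,
    orderOf_invElem h hinj (neg_one_ne_one hodd) kw hkw, not_isConj_of_card (by rw [hz, hw]; exact hne),
    fun _ hu => isConj_or h H hodd hinj hB hu, hz, hw⟩

end CfsgLib.InvCentralizers.ChevInvolution
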