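import Cfsg.Agent.Lib.InvCentralizers.ChevInvolution.DataE8
import Cfsg.Agent.Lib.InvCentralizers.ChevInvolution.Classes

/-!
The two classes of involutions of the Chevalley group of type E₈ over a field of odd order.
-/

set_option autoImplicit false
set_option maxRecDepth 100000

namespace CfsgLib.InvCentralizers.ChevInvolution.E8

open Cfsg.Lie CfsgLib.Chevalley

theorem full : Full chevE8 auxE8 := ⟨⟨cert_E8, posE8, by simp⟩, extraE8⟩

theorem invData : InvData chevE8 auxE8 := by
  refine ⟨?_, ?_⟩ <;> decide +kernel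

theorem two_lt {F : Type*} [Fintype F] [Nontrivial F] (hodd : Odd (Fintype.card F)) :
    2 < Fintype.card F := by
  have := Fintype.one_lt_card (α := F)
  rcases hodd with ⟨k, hk⟩
  omega

/-- Two classes of involutions, with the orders of their centralizers. -/
theorem involution_classes {F : Type*} [Field F] [Fintype F] (hodd : Odd (Fintype.card F)) :
    ∃ s t : chevE8.group F, orderOf s = 2 ∧ orderOf t = 2 ∧ ¬ IsConj s t ∧
      (∀ u : chevE8.group F, orderOf u = 2 → IsConj u s ∨ IsConj u t) ∧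
      Nat.card (Subgroup.centralizer ({s} : Set (chevE8.group F))) =
        Fintype.card F ^ 56 * (Fintype.card F ^ 8 - 1) *
          ∏ i ∈ Finset.Icc 1 7, (Fintype.card F ^ (2 * i) - 1) ∧
      Nat.card (Subgroup.centralizer ({t} : Set (chevE8.group F))) =
        Fintype.card F ^ 64 * (Fintype.card F ^ 2 - 1) ^ 2 * (Fintype.card F ^ 6 - 1) *
          (Fintype.card F ^ 8 - 1) * (Fintype.card F ^ 10 - 1) * (Fintype.card F ^ 12 - 1) *
          (Fintype.card F ^ 14 - 1) * (Fintype.card F ^ 18 - 1) := by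
  have hd : Nat.card (chevE8.diagonalSubgroup F) = (Fintype.card F - 1) ^ chevE8.rank :=
    (one_mul _).symm.trans card_diagonalE8
  refine two_classes hodd full invData hd cover ⟨0, by decide⟩ ⟨0, by decide⟩ rfl rfl ?_ ?_ ?_
  · rw [card_centralizer_eq hodd full reflTabE8_ok maskS_ok rfl expsLenS levelsS_ok levelsE8_ok
      orbitS_ok sizeS poincareS hd, posLenS]
    simp [Finset.prod_Icc_succ_top, mul_assoc]
  · rw [card_centralizer_eq hodd full reflTabE8_ok maskT_ok rfl expsLenT levelsT_ok levelsE8_ok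
      orbitT_ok sizeT poincareT hd, posLenT]
    simp [mul_assoc, pow_two]
  · set q := Fintype.card F
    have hq : 1 < q := (Nat.lt_succ_self 1).trans (two_lt hodd)
    have hp : ∀ e, 0 < e → 0 < q ^ e - 1 := fun e he =>
      Nat.sub_pos_of_lt (Nat.one_lt_pow he.ne' hq)
    have h1 : q ^ 56 * (q ^ 4 - 1) < q ^ 64 * (q ^ 2 - 1) := by
      calc q ^ 56 * (q ^ 4 - 1) < q ^ 56 * q ^ 4 :=
            Nat.mul_lt_mul_of_pos_left (Nat.sub_lt (by positivity) one_pos) (by positivity)
        _ = q ^ 60 := by rw [← pow_add]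
        _ ≤ q ^ 64 := Nat.pow_le_pow_right (by omega) (by norm_num)
        _ ≤ _ := Nat.le_mul_of_pos_right _ (hp 2 (by norm_num))
    have h3 : q ^ 8 - 1 < q ^ 18 - 1 := by
      have := Nat.pow_lt_pow_right hq (show 8 < 18 by norm_num)
      have := Nat.one_le_pow 8 q (by omega)
      omega
    have hP : 0 < (q ^ 2 - 1) * (q ^ 6 - 1) * (q ^ 8 - 1) * (q ^ 10 - 1) * (q ^ 12 - 1) * (q ^ 14 - 1) :=
      Nat.mul_pos (Nat.mul_pos (Nat.mul_pos (Nat.mul_pos (Nat.mul_pos (hp 2 (by norm_num))
        (hp 6 (by norm_num))) (hp 8 (by norm_num))) (hp 10 (by norm_num))) (hp 12 (by norm_num)))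
        (hp 14 (by norm_num))
    have hlt := Nat.mul_lt_mul_of_pos_left (Nat.mul_lt_mul'' h1 h3) hP
    refine ne_of_lt ?_
    rw [show Finset.Icc 1 7 = ({1, 2, 3, 4, 5, 6, 7} : Finset ℕ) by decide]
    repeat rw [Finset.prod_insert (by decide)]
    simp only [Finset.prod_singleton, Nat.reduceMul]
    refine lt_of_eq_of_lt ?_ (lt_of_lt_of_eq hlt ?_) <;> ring

end CfsgLib.InvCentralizers.ChevInvolution.E8
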