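import Cfsg.Agent.Lib.InvCentralizers.ChevInvolution.Count

/-!
The sum `Σ q^{n(w)}` over the permutations preserving the even roots, from levels of coset
representatives given by words with their packed tables, and the number of cosets.
-/

set_option autoImplicit false
set_option linter.unusedSectionVars false

namespace CfsgLib.InvCentralizers.ChevInvolution

open Cfsg.Lie CfsgLib.Chevalley Sparse

variable {D : ChevalleyDatum} {A : Aux}

/-- A level: the positive even roots outside the smaller subsystem, the representatives as words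
and as packed tables, their numbers of inversions, and the masks of the images of the roots. -/
structure SubLevel where
  /-- the outside roots -/
  X : ℕ
  /-- words in the fundamental reflections -/
  words : List (List ℕ)
  /-- packed tables -/
  tabs : List ℕ
  /-- inversions -/
  exps : List ℕ
  /-- masks of the images of `X` -/
  masks : List ℕ
deriving Inhabited

/-- The root `s` moved by a word of fundamental reflections. -/
noncomputable def appW (R : List ℕ) (w : List ℕ) (s : ℕ) : ℕ := w.foldr (fun i u => rfT R i u) s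

/-- The mask of the image of a set of roots. -/
noncomputable def maskOf (D : ChevalleyDatum) (f : ℕ → ℕ) (S : ℕ) : ℕ :=
  (((List.range D.nroots).filter fun s => S.testBit s).map fun s => 2 ^ f s).sum

/-- The check of level `k`. -/
noncomputable def subLevelB (D : ChevalleyDatum) (R : List ℕ) (M : ℕ) (Ls : List SubLevel) (k : ℕ)
    (L : SubLevel) : Bool :=
  lall (fun s => !L.X.testBit s || (M.testBit s && Nat.ble (D.nroots / 2) s))
    (List.range D.nroots) &&
  lall (fun j =>
      lall (fun i => Nat.blt i D.rank) (L.words.getD j []) &&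
      lall (fun s => octet (L.tabs.getD j 0) s == appW R (L.words.getD j []) s)
        (List.range D.nroots) &&
      lall (fun s => M.testBit (octet (L.tabs.getD j 0) s) == M.testBit s) (List.range D.nroots) &&
      lall (fun s => !(M.testBit s && Nat.ble (D.nroots / 2) s && !L.X.testBit s) ||
          Nat.ble (D.nroots / 2) (octet (L.tabs.getD j 0) s)) (List.range D.nroots) &&
      (((posIn D M).filter fun s => Nat.blt (octet (L.tabs.getD j 0) s) (D.nroots / 2)).length ==
        L.exps.getD j 0) &&
      lall (fun m => !Nat.blt k m || lall (fun s => !(Ls.getD m default).X.testBit s ||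
          (Ls.getD m default).X.testBit (octet (L.tabs.getD j 0) s)) (List.range D.nroots))
        (List.range Ls.length) &&
      (L.masks.getD j 0 == maskOf D (octet (L.tabs.getD j 0)) L.X))
    (List.range L.words.length) &&
  (L.masks.length == L.words.length) && decide L.masks.Nodup

/-- The check of the cosets: words and the masks of the images of the even roots. -/
noncomputable def orbitB (D : ChevalleyDatum) (R : List ℕ) (M : ℕ) (ws : List (List ℕ))
    (masks : List ℕ) : Bool :=
  lall (fun j => lall (fun i => Nat.blt i D.rank) (ws.getD j []) &&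
      (masks.getD j 0 == maskOf D (appW R (ws.getD j [])) M)) (List.range ws.length) &&
  (masks.length == ws.length) && decide masks.Nodup

theorem appW_eq (h : Full D A) {R : List ℕ} (hR : reflTabB D A R = true) :
    ∀ (l : List (Fin D.rank)) (s : Fin D.nroots),
      ((wPerm h.cert l s : Fin D.nroots) : ℕ) = appW R (l.map Fin.val) s := by
  simp only [reflTabB, lall_eq, List.all_eq_true, List.mem_range, beq_iff_eq] at hR
  intro l
  induction l with
  | nil => intro s; rfl
  | cons i l ih =>
    intro s
    rw [List.map_cons, wPerm_cons, Equiv.Perm.mul_apply, rfPerm_apply]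
    show _ = rfT R i (appW R (l.map Fin.val) s)
    rw [← ih s, hR i i.isLt _ (wPerm h.cert l s).isLt,
      h.cert.fRefl_eq i.isLt (wPerm h.cert l s).isLt]
    rfl

theorem exists_word (h : Full D A) {R : List ℕ} (hR : reflTabB D A R = true) (w : List ℕ)
    (hw : ∀ i ∈ w, i < D.rank) :
    ∃ σ ∈ wSet h.cert D.rank, ∀ s : Fin D.nroots, ((σ s : Fin D.nroots) : ℕ) = appW R w s := by
  let l : List (Fin D.rank) := w.pmap Fin.mk hw
  have hl : l.map Fin.val = w := by simp [l, List.map_pmap]
  exact ⟨wPerm h.cert l, mem_wSet_rank h.cert l, fun s => by rw [appW_eq h hR l s, hl]⟩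

theorem maskOf_eq {f : ℕ → ℕ} {σ : Equiv.Perm (Fin D.nroots)}
    (hf : ∀ s : Fin D.nroots, ((σ s : Fin D.nroots) : ℕ) = f s) (S : ℕ) :
    maskOf D f S = ∑ x ∈ (rootsIn D S).image σ, 2 ^ (x : ℕ) := by
  classical
  rw [Finset.sum_image fun a _ b _ e => σ.injective e, maskOf,
    ← List.sum_toFinset _ (List.Nodup.filter _ List.nodup_range)]
  refine Finset.sum_bij' (fun s hs => (⟨s, List.mem_range.1 (List.mem_filter.1
      (List.mem_toFinset.1 hs)).1⟩ : Fin D.nroots)) (fun s _ => (s : ℕ)) ?_ ?_ (fun _ _ => rfl)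
    (fun _ _ => rfl) ?_
  · intro s hs
    exact mem_rootsIn.2 (List.mem_filter.1 (List.mem_toFinset.1 hs)).2
  · intro s hs
    exact List.mem_toFinset.2 (List.mem_filter.2 ⟨List.mem_range.2 s.isLt, mem_rootsIn.1 hs⟩)
  · intro s hs
    rw [hf]

theorem mem_cenW_mul (h : Full D A) {M : ℕ} {σ τ : Equiv.Perm (Fin D.nroots)}
    (hσ : σ ∈ cenW h.cert M) (hτ : τ ∈ cenW h.cert M) : σ * τ ∈ cenW h.cert M := by
  simp only [cenW, Finset.mem_filter, mem_wSet] at hσ hτ ⊢
  obtain ⟨⟨l, -, rfl⟩, hs⟩ := hσ
  obtain ⟨⟨l', -, rfl⟩, ht⟩ := hτ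
  exact ⟨⟨l ++ l', fun i _ => i.isLt, wPerm_append h.cert l l'⟩, fun s => by
    rw [Equiv.Perm.mul_apply, hs, ht]⟩

theorem neg_of_mem_wSet (h : Full D A) {σ : Equiv.Perm (Fin D.nroots)}
    (hσ : σ ∈ wSet h.cert D.rank) (s : Fin D.nroots) : σ (ngR h.cert s) = ngR h.cert (σ s) := by
  obtain ⟨l, -, rfl⟩ := mem_wSet.1 hσ
  exact (acts_nW (F := ℚ) h l).choose_spec.neg s

theorem one_mem_cenW (h : Full D A) (M : ℕ) : (1 : Equiv.Perm (Fin D.nroots)) ∈ cenW h.cert M :=
  Finset.mem_filter.2 ⟨mem_wSet.2 ⟨[], fun i hi => absurd hi List.not_mem_nil, wPerm_nil h.cert⟩,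
    fun _ => rfl⟩

/-- The facts about a level. -/
theorem subLevel_spec (h : Full D A) {R : List ℕ} (hR : reflTabB D A R = true) {M : ℕ}
    {Ls : List SubLevel} {k : ℕ} {L : SubLevel} (hL : subLevelB D R M Ls k L = true) :
    (∀ s : Fin D.nroots, L.X.testBit s = true → M.testBit s = true ∧ D.IsPosRoot s) ∧
    ∃ d : Fin L.words.length → Equiv.Perm (Fin D.nroots),
      (∀ j, d j ∈ cenW h.cert M) ∧
      (∀ j, ∀ s : Fin D.nroots, M.testBit s = true → D.IsPosRoot s → L.X.testBit s = false →
        D.IsPosRoot (d j s)) ∧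
      (∀ j, (invsIn M (d j)).card = L.exps.getD j 0) ∧
      (∀ j, ∀ m, k < m → m < Ls.length → ∀ s : Fin D.nroots, (Ls.getD m default).X.testBit s = true →
        (Ls.getD m default).X.testBit (d j s) = true) ∧
      (∀ j j', (rootsIn D L.X).image (d j) = (rootsIn D L.X).image (d j') → j = j') := by
  classical
  simp only [subLevelB, Bool.and_eq_true, lall_eq, List.all_eq_true, List.mem_range, beq_iff_eq,
    Bool.or_eq_true, Bool.not_eq_true', Bool.and_eq_false_iff, Bool.not_eq_false',
    Nat.blt_eq, Nat.ble_eq, decide_eq_true_eq] at hL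
  obtain ⟨⟨⟨hX, hj⟩, hlen⟩, hnd⟩ := hL
  have hn := h.pos.nroots_eq
  have hword : ∀ j : Fin L.words.length, ∃ σ ∈ wSet h.cert D.rank,
      ∀ s : Fin D.nroots, ((σ s : Fin D.nroots) : ℕ) = octet (L.tabs.getD j 0) s := by
    intro j
    obtain ⟨⟨⟨⟨⟨⟨hw, htab⟩, -⟩, -⟩, -⟩, -⟩, -⟩ := hj j j.isLt
    obtain ⟨σ, hσ, hs⟩ := exists_word h hR _ hw
    exact ⟨σ, hσ, fun s => by rw [hs, htab s s.isLt]⟩
  choose d hd hdt using hword
  refine ⟨fun s hs => ?_, d, fun j => ?_, fun j s hM hp hXs => ?_, fun j => ?_,
    fun j m hm hm' s hs => ?_, fun j j' e => ?_⟩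
  · rcases hX s s.isLt with e | ⟨e1, e2⟩
    · rw [hs] at e; exact absurd e (by simp)
    · exact ⟨e1, h.pos.isPos_iff.2 ⟨e2, s.isLt⟩⟩
  · obtain ⟨⟨⟨⟨⟨-, hM⟩, -⟩, -⟩, -⟩, -⟩ := hj j j.isLt
    refine Finset.mem_filter.2 ⟨hd j, fun s => ?_⟩
    rw [hdt]; exact hM s s.isLt
  · obtain ⟨⟨⟨⟨-, hpos⟩, -⟩, -⟩, -⟩ := hj j j.isLt
    refine h.pos.isPos_iff.2 ⟨?_, (d j s).isLt⟩
    rw [hdt]
    refine (hpos s s.isLt).resolve_left ?_
    rintro ((e | e) | e)
    · rw [hM] at e; exact absurd e (by simp)
    · rw [Nat.ble_eq_true_of_le (h.pos.isPos_iff.1 hp).1] at e; exact absurd e (by simp)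
    · rw [hXs] at e; exact absurd e (by simp)
  · obtain ⟨⟨⟨-, hexp⟩, -⟩, -⟩ := hj j j.isLt
    rw [← hexp, ← List.toFinset_card_of_nodup (List.Nodup.filter _
      ((pairwise_posIn M).imp (fun h => Nat.ne_of_lt h)))]
    refine Finset.card_bij (fun r _ => (r : ℕ)) ?_ (fun a _ b _ e => Fin.ext e) ?_
    · intro r hr
      simp only [invsIn, Finset.mem_filter, mem_invs] at hr
      refine List.mem_toFinset.2 (List.mem_filter.2 ⟨(mem_posIn h).2 ⟨hr.1.1, hr.2⟩, ?_⟩)
      rw [Nat.blt_eq, ← hdt]
      exact h.pos.isNeg_iff.1 hr.1.2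
    · intro r hr
      obtain ⟨h1, h2⟩ := List.mem_filter.1 (List.mem_toFinset.1 hr)
      obtain ⟨hp, hm⟩ := (mem_posIn h).1 h1
      refine ⟨⟨r, hp.1⟩, ?_, rfl⟩
      simp only [invsIn, Finset.mem_filter, mem_invs]
      refine ⟨⟨hp, h.pos.isNeg_iff.2 ?_⟩, hm⟩
      rw [hdt]
      exact cast Nat.blt_eq h2
  · obtain ⟨⟨-, hpres⟩, -⟩ := hj j j.isLt
    rcases hpres m hm' with e | e
    · simp only [← Bool.not_eq_true, Nat.blt_eq] at e; exact absurd hm e
    · rw [hdt]
      rcases e s s.isLt with e' | e'
      · rw [hs] at e'; exact absurd e' (by simp)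
      · exact e'
  · have hj1 := (hj j j.isLt).2
    have hj2 := (hj j' j'.isLt).2
    rw [maskOf_eq (hdt j)] at hj1
    rw [maskOf_eq (hdt j'), ← e, ← hj1] at hj2
    refine Fin.ext ((List.Nodup.getElem_inj_iff (hi := by omega) (hj := by omega) hnd).1 ?_)
    rw [List.getD_eq_getElem _ _ (by omega), List.getD_eq_getElem _ _ (by omega)] at hj2
    exact hj2.symm

open Classical in
/-- The count over the levels. -/
theorem sum_levels (h : Full D A) {R : List ℕ} (hR : reflTabB D A R = true) {M : ℕ}
    (hMneg : ∀ s : Fin D.nroots, M.testBit (ngR h.cert s) = M.testBit s) {Ls : List SubLevel}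
    (hLs : ∀ k < Ls.length, subLevelB D R M Ls k (Ls.getD k default) = true) (q : ℕ) :
    ∃ S ⊆ cenW h.cert M, ∑ σ ∈ S, q ^ (invsIn M σ).card =
        ∏ k ∈ Finset.range Ls.length, ∑ j : Fin (Ls.getD k default).words.length,
          q ^ (Ls.getD k default).exps.getD j 0 ∧
      S.card = ∏ k ∈ Finset.range Ls.length, (Ls.getD k default).words.length := by
  have hspec := fun k (hk : k < Ls.length) => subLevel_spec h hR (hLs k hk)
  suffices H : ∀ k ≤ Ls.length, ∃ S ⊆ cenW h.cert M,
      (∀ v ∈ S, ∀ m, k ≤ m → m < Ls.length → ∀ s : Fin D.nroots,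
        (Ls.getD m default).X.testBit s = true → (Ls.getD m default).X.testBit (v s) = true) ∧
      ∑ σ ∈ S, q ^ (invsIn M σ).card = ∏ i ∈ Finset.range k,
        ∑ j : Fin (Ls.getD i default).words.length, q ^ (Ls.getD i default).exps.getD j 0 ∧
      S.card = ∏ i ∈ Finset.range k, (Ls.getD i default).words.length by
    obtain ⟨S, h1, -, h2, h3⟩ := H _ le_rfl
    exact ⟨S, h1, h2, h3⟩
  intro k
  induction k with
  | zero =>
    refine fun _ => ⟨{1}, by simpa using one_mem_cenW h M, ?_, ?_, by simp⟩
    · intro v hv m _ _ s hs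
      rw [Finset.mem_singleton.1 hv]; exact hs
    · rw [Finset.sum_singleton, Finset.prod_range_zero]
      have : invsIn M (1 : Equiv.Perm (Fin D.nroots)) = ∅ := by
        refine Finset.eq_empty_of_forall_notMem fun s hs => ?_
        simp only [invsIn, Finset.mem_filter, mem_invs] at hs
        exact h.pos_not_neg hs.1.1 hs.1.2
      rw [this, Finset.card_empty, pow_zero]
  | succ k ih =>
    intro hk
    obtain ⟨S, hS, hpres, hsum, hcard⟩ := ih (Nat.le_of_succ_le hk)
    obtain ⟨hX, d, hd, hpos, hexp, hup, hinjd⟩ := hspec k hk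
    -- an element of `S` maps `X` onto itself and the rest of the even positive roots to even roots
    -- outside `X ∪ -X`
    have himg : ∀ v ∈ S, (rootsIn D (Ls.getD k default).X).image v = rootsIn D (Ls.getD k default).X := fun v hv => by
      refine Finset.eq_of_subset_of_card_le (fun x hx => ?_)
        (Finset.card_image_of_injective _ v.injective).ge
      obtain ⟨s, hs, rfl⟩ := Finset.mem_image.1 hx
      exact mem_rootsIn.2 (hpres v hv k le_rfl hk s (mem_rootsIn.1 hs))
    have hback : ∀ v ∈ S, ∀ s, (Ls.getD k default).X.testBit (v s : Fin D.nroots) = true → (Ls.getD k default).X.testBit s = true := by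
      intro v hv s hs
      have : v s ∈ (rootsIn D (Ls.getD k default).X).image v := by rw [himg v hv]; exact mem_rootsIn.2 hs
      obtain ⟨r, hr, e⟩ := Finset.mem_image.1 this
      rw [← v.injective e]; exact mem_rootsIn.1 hr
    have hsplit : ∀ j, ∀ v ∈ S, (invsIn M (d j * v)).card =
        (invsIn M (d j)).card + (invsIn M v).card := by
      intro j v hv
      have hvM : ∀ s : Fin D.nroots, M.testBit (v s) = M.testBit s :=
        (Finset.mem_filter.1 (hS hv)).2
      have hvn := neg_of_mem_wSet h (Finset.mem_filter.1 (hS hv)).1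
      have hdn := neg_of_mem_wSet h (Finset.mem_filter.1 (hd j)).1
      have hdX : ∀ r : Fin D.nroots, D.IsPosRoot r → M.testBit r = true →
          D.IsNegRoot (d j r) → (Ls.getD k default).X.testBit r = true := by
        intro r hr hm hneg
        by_contra hx
        exact h.pos_not_neg (hpos j r hm hr (Bool.eq_false_iff.2 hx)) hneg
      have hsp : invsIn M (d j * v) = invsIn M v ∪ (invsIn M (d j)).image v.symm := by
        ext r
        simp only [invsIn, Finset.mem_filter, mem_invs, Finset.mem_union, Finset.mem_image,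
          Equiv.Perm.mul_apply]
        constructor
        · rintro ⟨⟨hr, hn⟩, hm⟩
          rcases h.pos.pos_or_neg (v r).isLt with hp | hneg
          · exact Or.inr ⟨v r, ⟨⟨hp, hn⟩, by rw [hvM]; exact hm⟩, v.symm_apply_apply r⟩
          · exact Or.inl ⟨⟨hr, hneg⟩, hm⟩
        · rintro (⟨⟨hr, hn⟩, hm⟩ | ⟨s, ⟨⟨hs, hn⟩, hm⟩, rfl⟩)
          · refine ⟨⟨hr, ?_⟩, hm⟩
            by_contra hc
            have hp : D.IsPosRoot (d j (v r)) := (h.pos.pos_or_neg (d j (v r)).isLt).resolve_right hc
            have hp2 : D.IsPosRoot (ngR h.cert (v r)) := h.neg_isPos hn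
            have hm2 : M.testBit (ngR h.cert (v r)) = true := by
              rw [← hvn, hvM, hMneg, hm]
            have hneg2 : D.IsNegRoot (d j (ngR h.cert (v r))) := by
              rw [hdn]
              refine (h.neg_pos_iff (ngR h.cert (d j (v r))).isLt).1 ?_
              show D.IsPosRoot (ngR h.cert (ngR h.cert (d j (v r))))
              rw [ngR_ngR]; exact hp
            have hXn := hdX _ hp2 hm2 hneg2
            rw [← hvn] at hXn
            have := (hX _ (hback v hv _ hXn)).2
            exact h.pos_not_neg hr ((h.neg_pos_iff r.isLt).1 this)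
          · rw [Equiv.apply_symm_apply]
            have hm' : M.testBit (v.symm s : Fin D.nroots) = true := by
              rw [← hvM, Equiv.apply_symm_apply]; exact hm
            have hsX := hdX s hs hm hn
            have hsX' : (Ls.getD k default).X.testBit (v.symm s : Fin D.nroots) = true :=
              hback v hv _ (by rw [Equiv.apply_symm_apply]; exact hsX)
            exact ⟨⟨(hX _ hsX').2, hn⟩, hm'⟩
      rw [hsp, Finset.card_union_of_disjoint, Finset.card_image_of_injective _ v.symm.injective,
        add_comm]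
      rw [Finset.disjoint_left]
      intro r hr hr'
      simp only [invsIn, Finset.mem_filter, mem_invs] at hr
      obtain ⟨s, hs, rfl⟩ := Finset.mem_image.1 hr'
      simp only [invsIn, Finset.mem_filter, mem_invs] at hs
      rw [Equiv.apply_symm_apply] at hr
      exact h.pos_not_neg hs.1.1 hr.1.2
    have hinj : ∀ a ∈ (Finset.univ ×ˢ S), ∀ b ∈ (Finset.univ ×ˢ S),
        d a.1 * a.2 = d b.1 * b.2 → a = b := by
      rintro ⟨j, v⟩ ha ⟨j', v'⟩ hb e
      simp only [Finset.mem_product, Finset.mem_univ, true_and] at ha hb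
      have e1 := congrArg (fun σ : Equiv.Perm (Fin D.nroots) => (rootsIn D (Ls.getD k default).X).image σ) e
      simp only [Equiv.Perm.coe_mul, ← Finset.image_image, himg v ha, himg v' hb] at e1
      obtain rfl := hinjd j j' e1
      exact congrArg (Prod.mk j) (mul_left_cancel e)
    refine ⟨(Finset.univ ×ˢ S).image fun p => d p.1 * p.2, ?_, ?_, ?_, ?_⟩
    · intro σ hσ
      obtain ⟨⟨j, v⟩, hp, rfl⟩ := Finset.mem_image.1 hσ
      exact mem_cenW_mul h (hd j) (hS (Finset.mem_product.1 hp).2)
    · intro σ hσ m hm hm' s hs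
      obtain ⟨⟨j, v⟩, hp, rfl⟩ := Finset.mem_image.1 hσ
      exact hup j m hm hm' _ (hpres v (Finset.mem_product.1 hp).2 m (by omega) hm' s hs)
    · rw [Finset.sum_image hinj, Finset.sum_product, Finset.prod_range_succ, ← hsum, mul_comm,
        Finset.sum_mul_sum]
      refine Finset.sum_congr rfl fun j _ => Finset.sum_congr rfl fun v hv => ?_
      rw [hsplit j v hv, pow_add, hexp j]
    · rw [Finset.card_image_of_injOn (fun a ha b hb => hinj a ha b hb), Finset.card_product,
        Finset.card_univ, Fintype.card_fin, Finset.prod_range_succ, hcard, mul_comm]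

theorem card_wSet (h : Full D A) {R : List ℕ} (hR : reflTabB D A R = true) {Ws : List CosetLevel}
    (hWs : ∀ k < D.rank, levelB D A R k (Ws.getD k default) = true) :
    (wSet h.cert D.rank).card = ∏ k ∈ Finset.range D.rank, (Ws.getD k default).imgs.length := by
  have := count_eq h hR hWs 1
  simpa using this

/-- The count over the permutations preserving the even roots. -/
theorem sum_cenW (h : Full D A) {R : List ℕ} (hR : reflTabB D A R = true) {M : ℕ}
    (hMneg : ∀ s : Fin D.nroots, M.testBit (ngR h.cert s) = M.testBit s) {Ls : List SubLevel}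
    (hLs : ∀ k < Ls.length, subLevelB D R M Ls k (Ls.getD k default) = true)
    {Ws : List CosetLevel} (hWs : ∀ k < D.rank, levelB D A R k (Ws.getD k default) = true)
    {ws : List (List ℕ)} {masks : List ℕ} (hO : orbitB D R M ws masks = true)
    (hsize : (∏ k ∈ Finset.range Ls.length, (Ls.getD k default).words.length) * ws.length =
      ∏ k ∈ Finset.range D.rank, (Ws.getD k default).imgs.length) (q : ℕ) :
    ∑ σ ∈ cenW h.cert M, q ^ (invsIn M σ).card =
      ∏ k ∈ Finset.range Ls.length, ∑ j : Fin (Ls.getD k default).words.length,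
        q ^ (Ls.getD k default).exps.getD j 0 := by
  classical
  obtain ⟨S, hS, hsum, hcard⟩ := sum_levels h hR hMneg hLs q
  simp only [orbitB, Bool.and_eq_true, lall_eq, List.all_eq_true, List.mem_range, beq_iff_eq,
    decide_eq_true_eq, Nat.blt_eq] at hO
  obtain ⟨⟨hw, hlen⟩, hnd⟩ := hO
  have hword := fun j : Fin ws.length => exists_word h hR _ (hw j j.isLt).1
  choose o ho hot using hword
  have himg : ∀ σ ∈ cenW h.cert M, (rootsIn D M).image σ = rootsIn D M := fun σ hσ => by
    refine Finset.eq_of_subset_of_card_le (fun x hx => ?_)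
      (Finset.card_image_of_injective _ σ.injective).ge
    obtain ⟨s, hs, rfl⟩ := Finset.mem_image.1 hx
    exact mem_rootsIn.2 (((Finset.mem_filter.1 hσ).2 s).trans (mem_rootsIn.1 hs))
  have hinj : ∀ a ∈ (Finset.univ ×ˢ cenW h.cert M), ∀ b ∈ (Finset.univ ×ˢ cenW h.cert M),
      o a.1 * a.2 = o b.1 * b.2 → a = b := by
    rintro ⟨j, v⟩ ha ⟨j', v'⟩ hb e
    simp only [Finset.mem_product, Finset.mem_univ, true_and] at ha hb
    have e1 := congrArg (fun σ : Equiv.Perm (Fin D.nroots) => (rootsIn D M).image σ) e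
    simp only [Equiv.Perm.coe_mul, ← Finset.image_image, himg v ha, himg v' hb] at e1
    have hj1 := (hw j j.isLt).2
    have hj2 := (hw j' j'.isLt).2
    rw [maskOf_eq (hot j)] at hj1
    rw [maskOf_eq (hot j'), ← e1, ← hj1] at hj2
    rw [List.getD_eq_getElem _ _ (by omega), List.getD_eq_getElem _ _ (by omega)] at hj2
    obtain rfl : j = j' := Fin.ext ((hnd.getElem_inj_iff).1 hj2.symm)
    exact congrArg (Prod.mk j) (mul_left_cancel e)
  have hle : ((Finset.univ ×ˢ cenW h.cert M).image fun p => o p.1 * p.2) ⊆ wSet h.cert D.rank := by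
    intro σ hσ
    obtain ⟨⟨j, v⟩, hp, rfl⟩ := Finset.mem_image.1 hσ
    obtain ⟨l, -, e⟩ := mem_wSet.1 (ho j)
    obtain ⟨l', -, e'⟩ := mem_wSet.1 (Finset.mem_filter.1 (Finset.mem_product.1 hp).2).1
    exact mem_wSet.2 ⟨l ++ l', fun i _ => i.isLt, by rw [wPerm_append, e, e']⟩
  have hb := Finset.card_le_card hle
  rw [Finset.card_image_of_injOn (fun a ha b hb => hinj a ha b hb), Finset.card_product,
    Finset.card_univ, Fintype.card_fin, card_wSet h hR hWs, ← hsize, ← hcard, mul_comm] at hb
  have hpos : 0 < ws.length := by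
    rcases Nat.eq_zero_or_pos ws.length with e | e
    · exfalso
      have hne : 0 < (wSet h.cert D.rank).card :=
        Finset.card_pos.2 ⟨1, (Finset.mem_filter.1 (one_mem_cenW h M)).1⟩
      rw [card_wSet h hR hWs, ← hsize, e, mul_zero] at hne
      exact lt_irrefl 0 hne
    · exact e
  rw [← Finset.eq_of_subset_of_card_le hS (Nat.le_of_mul_le_mul_right hb hpos), hsum]

/-- The order of the centralizer of a torus involution, from the data. -/
theorem card_centralizer_eq {F : Type*} [Field F] [Fintype F] (hodd : Odd (Fintype.card F))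
    (h : Full D A) {R : List ℕ} (hR : reflTabB D A R = true) {b M : ℕ}
    (hMB : lall (fun s => M.testBit s == even D A b s && M.testBit (D.neg s) == M.testBit s)
      (List.range D.nroots) = true) {Ls : List SubLevel}
    (hlenLs : Ls.length = D.rank)
    (hexp : (Ls.all fun L => L.exps.length == L.words.length) = true)
    (hLs : ∀ k < Ls.length, subLevelB D R M Ls k (Ls.getD k default) = true)
    {Ws : List CosetLevel} (hWs : ∀ k < D.rank, levelB D A R k (Ws.getD k default) = true)
    {ws : List (List ℕ)} {masks : List ℕ} (hO : orbitB D R M ws masks = true)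
    (hsize : (∏ k ∈ Finset.range Ls.length, (Ls.getD k default).words.length) * ws.length =
      ∏ k ∈ Finset.range D.rank, (Ws.getD k default).imgs.length)
    {degs : List ℕ} (hB : poincareB (Ls.map fun L => L.exps) degs = true)
    (hd : Nat.card (D.diagonalSubgroup F) = (Fintype.card F - 1) ^ D.rank) :
    Nat.card (Subgroup.centralizer ({invElem h F b} : Set (D.group F))) =
      Fintype.card F ^ (posIn D M).length * (degs.map fun e => Fintype.card F ^ e - 1).prod := by
  classical
  simp only [lall_eq, List.all_eq_true, List.mem_range, beq_iff_eq, Bool.and_eq_true] at hMB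
  simp only [List.all_eq_true, beq_iff_eq] at hexp
  have hM : ∀ s : Fin D.nroots, M.testBit s = true ↔ chi D s (sgn D F b) = 1 := fun s => by
    rw [chi_sgn_eq_one_iff h.cert (neg_one_ne_one hodd) b s.isLt, (hMB s s.isLt).1]
  set q := Fintype.card F with hq
  have hq1 : 1 ≤ q := Fintype.card_pos
  rw [invElem, card_centralizer h _ (sgn_mul_self b) hM,
    sum_cenW h hR (fun s => (hMB s s.isLt).2) hLs hWs hO hsize, hd, mul_assoc]
  congr 1
  have hprod : ∏ k ∈ Finset.range Ls.length, ∑ j : Fin (Ls.getD k default).words.length,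
      q ^ (Ls.getD k default).exps.getD j 0 =
      ((Ls.map fun L => L.exps).map fun l => (l.map fun e => q ^ e).sum).prod := by
    rw [← Fin.prod_univ_eq_prod_range (fun k =>
      ∑ j : Fin (Ls.getD k default).words.length, q ^ (Ls.getD k default).exps.getD j 0)]
    rw [← List.prod_ofFn]
    congr 1
    refine List.ext_getElem (by simp) fun k h1 h2 => ?_
    have hk : k < Ls.length := by simpa using h1
    simp only [List.getElem_ofFn, List.getElem_map, List.getD_eq_getElem _ _ hk]
    have he := hexp _ (List.getElem_mem hk)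
    rw [← List.sum_ofFn]
    congr 1
    refine List.ext_getElem (by simp [he, hk]) fun j h3 h4 => ?_
    simp only [List.getElem_ofFn, List.getElem_map]
    rw [List.getD_eq_getElem]
  rw [hprod]
  have key := poincare hB (q : ℤ)
  rw [List.length_map, hlenLs] at key
  apply Nat.cast_injective (R := ℤ)
  rw [Nat.cast_mul, Nat.cast_pow, Nat.cast_sub hq1, Nat.cast_one, Nat.cast_list_prod,
    Nat.cast_list_prod, List.map_map, List.map_map]
  refine Eq.trans ?_ (key.trans ?_)
  · congr 2
    rw [List.map_map]
    refine List.map_congr_left fun l _ => ?_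
    simp [Function.comp_apply, Nat.cast_list_sum, List.map_map, Function.comp_def]
  · congr 1
    rw [List.map_map]
    refine List.map_congr_left fun e _ => ?_
    simp [Nat.cast_sub (Nat.one_le_pow _ _ hq1)]

end CfsgLib.InvCentralizers.ChevInvolution
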